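import Cfsg.Agent.H184.FusBad

/-!
# S5227, task C1 (`exists_max`): automorphisms of an essential subgroup moving `D` as far as possible (helper575)
-/

set_option autoImplicit false

namespace Cfsg.Agent.H575.Co

open Subgroup Cfsg Cfsg.Agent.H752 Cfsg.Agent.H802 Cfsg.Agent.H744
open Cfsg.Agent.EvenType.StrongP
open Cfsg.Agent.H184.FusBad (respects mem_respects_of_mapsTo)

/-- A nontrivial `p`-element of `Y` with a conjugate in `Y`. -/
theorem mem_of_conj {X : Type*} [Group X] [Finite X] {p : ℕ} [Fact p.Prime] {Y : Subgroup X} (hY : NormIn p Y)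
    {u a : X} (huY : u ∈ Y) (hu : ∃ n : ℕ, u ^ p ^ n = 1) (hu1 : u ≠ 1) (ha : a⁻¹ * u * a ∈ Y) : a ∈ Y := by
  by_contra hnot
  apply hY.inter hnot
  have hzm : u ∈ Y ⊓ Y.map (MulAut.conj a).toMonoidHom := by
    refine ⟨huY, ⟨a⁻¹ * u * a, ha, ?_⟩⟩
    show a * (a⁻¹ * u * a) * a⁻¹ = u
    group
  obtain ⟨n, hn⟩ := hu
  have hzord : p ∣ orderOf u := by
    obtain ⟨m, -, hm⟩ := (Nat.dvd_prime_pow (Fact.out : p.Prime)).1 (orderOf_dvd_of_pow_eq_one hn)
    cases m with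
    | zero =>
      rw [pow_zero, orderOf_eq_one_iff] at hm
      exact absurd hm hu1
    | succ m =>
      rw [hm, pow_succ]
      exact Dvd.intro_left _ rfl
  have hzle : Subgroup.zpowers u ≤ Y ⊓ Y.map (MulAut.conj a).toMonoidHom := by
    rwa [Subgroup.zpowers_le]
  refine hzord.trans ?_
  rw [← Nat.card_zpowers]
  exact Subgroup.card_dvd_of_le hzle

/-- The abstract form: a proper subgroup `H` containing the `p`-group `W` and the subgroup `St` normalizing a `p`-group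
`B` with `B ∩ W ≰ I`, such that nontrivial conjugates of elements of `W` in `H` are conjugates under `H`. -/
theorem abs_strong {X : Type*} [Group X] [Finite X] {p : ℕ} [Fact p.Prime] {I : Subgroup X} [I.Normal]
    {Y : Subgroup (X ⧸ I)} (hY : IsStronglyPEmbedded p Y) {W B St : Subgroup X} (hW : IsPGroup p W)
    (hB : IsPGroup p B) (hn : ∀ s ∈ St, ∀ x ∈ B, s * x * s⁻¹ ∈ B) {b : X} (hbW : b ∈ W) (hbB : b ∈ B)
    (hbI : b ∉ I) :
    ∃ H : Subgroup X, H ≠ ⊤ ∧ St ≤ H ∧ ∀ w ∈ W, w ∉ I → ∀ a : X, a⁻¹ * w * a ∈ H → a ∈ H := by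
  have hNY := normIn hY
  obtain ⟨hdvd, hYt, P, hP⟩ := hY
  have hPY := sylow_le hdvd hP
  set π := QuotientGroup.mk' I with hπ
  have hπ1 : ∀ a : X, π a = 1 ↔ a ∈ I := fun a => QuotientGroup.eq_one_iff a
  -- conjugate so that the image of `W` lies in `Y`
  obtain ⟨R, hR⟩ := (hW.map π).exists_le_sylow
  obtain ⟨g, hg⟩ := MulAction.exists_smul_eq (X ⧸ I) P R
  set Y' := Y.map (MulAut.conj g).toMonoidHom with hY'
  have hNY' : NormIn p Y' := hNY.conj g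
  have hWY : W.map π ≤ Y' := by
    refine hR.trans ?_
    rw [← hg, Sylow.coe_subgroup_smul]
    exact map_mono hPY
  have hYt' : Y' ≠ ⊤ := by
    intro h
    apply hYt
    rw [eq_top_iff]
    intro x _
    have h1 : g * x * g⁻¹ ∈ Y' := by rw [h]; exact mem_top _
    obtain ⟨y, hy, hyx⟩ := h1
    have h2 : g * y * g⁻¹ = g * x * g⁻¹ := hyx
    have h3 : y = x := mul_left_cancel (mul_right_cancel h2)
    exact h3 ▸ hy
  -- the centre of the image of `B`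
  have hbY : π b ∈ Y' := hWY (mem_map_of_mem π hbW)
  have hb1 : π b ≠ 1 := fun h => hbI ((hπ1 b).1 h)
  set Bb := B.map π with hBb
  have hBp : IsPGroup p Bb := hB.map π
  have hbBb : π b ∈ Bb := mem_map_of_mem π hbB
  set Z := Bb ⊓ centralizer (Bb : Set (X ⧸ I)) with hZ
  have hZp : IsPGroup p Z := hBp.to_le inf_le_left
  have hbz : IsPGroup p (zpowers (π b)) := hBp.to_le (zpowers_le.2 hbBb)
  have hZY : Z ≤ Y' := by
    have h1 := hNY' (zpowers (π b)) hbz (zpowers_le.2 hbY) (by rwa [Ne, zpowers_eq_bot])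
    refine le_trans ?_ h1
    refine le_trans ?_ (Subgroup.centralizer_le_normalizer _)
    intro x hx
    rw [mem_centralizer_iff]
    rintro _ ⟨n, rfl⟩
    have h2 : Commute (π b) x := mem_centralizer_iff.1 hx.2 _ hbBb
    exact (h2.zpow_left n)
  have hZ1 : Z ≠ ⊥ := by
    have : Nontrivial Bb := ⟨⟨⟨π b, hbBb⟩, 1, fun h => hb1 (congrArg Subtype.val h)⟩⟩
    have hcn : Nontrivial (center Bb) := hBp.center_nontrivial
    obtain ⟨z, hz⟩ := exists_ne (1 : center Bb)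
    intro h0
    apply hz
    have h1 : ((z : Bb) : X ⧸ I) ∈ Z := by
      refine mem_inf.2 ⟨(z : Bb).2, ?_⟩
      rw [mem_centralizer_iff]
      intro y hy
      have h2 := mem_center_iff.1 z.2 ⟨y, hy⟩
      exact congrArg Subtype.val h2
    rw [h0, mem_bot] at h1
    exact Subtype.ext (Subtype.ext h1)
  have hNZ := hNY' Z hZp hZY hZ1
  refine ⟨Y'.comap π, ?_, ?_, ?_⟩
  · intro h
    apply hYt'
    rw [← map_comap_eq_self_of_surjective (QuotientGroup.mk'_surjective I) Y', ← hπ, h, ← MonoidHom.range_eq_map,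
      MonoidHom.range_eq_top.2 (QuotientGroup.mk'_surjective I)]
  · intro s hs
    rw [mem_comap]
    apply hNZ
    have key : ∀ t ∈ St, ∀ z ∈ Z, π t * z * (π t)⁻¹ ∈ Z := by
      intro t ht z hz
      have hBt : ∀ r ∈ St, ∀ y ∈ Bb, π r * y * (π r)⁻¹ ∈ Bb := by
        rintro r hr _ ⟨x, hx, rfl⟩
        rw [← map_inv, ← map_mul, ← map_mul]
        exact mem_map_of_mem π (hn r hr x hx)
      refine mem_inf.2 ⟨hBt t ht z hz.1, ?_⟩
      rw [mem_centralizer_iff]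
      intro y hy
      have h1 := hBt t⁻¹ (inv_mem ht) y hy
      rw [map_inv, inv_inv] at h1
      have h2 := mem_centralizer_iff.1 hz.2 _ h1
      have h3 : y = π t * ((π t)⁻¹ * y * π t) * (π t)⁻¹ := by group
      calc y * (π t * z * (π t)⁻¹) = π t * (((π t)⁻¹ * y * π t) * z) * (π t)⁻¹ := by group
        _ = π t * (z * ((π t)⁻¹ * y * π t)) * (π t)⁻¹ := by rw [h2]
        _ = π t * z * (π t)⁻¹ * y := by group
    rw [mem_normalizer_iff]
    intro z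
    refine ⟨key s hs z, fun h => ?_⟩
    have h1 := key s⁻¹ (inv_mem hs) _ h
    rw [map_inv, inv_inv] at h1
    have h2 : (π s)⁻¹ * (π s * z * (π s)⁻¹) * π s = z := by group
    rwa [h2] at h1
  · intro w hw hwI a ha
    rw [mem_comap] at ha ⊢
    rw [map_mul, map_mul, map_inv] at ha
    refine mem_of_conj hNY' (hWY (mem_map_of_mem π hw)) ?_ (fun h => hwI ((hπ1 w).1 h)) ha
    obtain ⟨n, hn⟩ := hW ⟨w, hw⟩
    refine ⟨n, ?_⟩
    rw [← map_pow]
    have h1 : w ^ p ^ n = 1 := congrArg Subtype.val hn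
    rw [h1, map_one]

/-- The automorphisms of `Q` stabilizing the chain `1 ≤ D ≤ Q`. -/
def stb {Ω : Type*} [Group Ω] (Q D : Subgroup Ω) : Subgroup (MulAut Q) where
  carrier := {β | (∀ x : Q, ((β x : Q) : Ω) * (x : Ω)⁻¹ ∈ D) ∧ ∀ d : Q, (d : Ω) ∈ D → β d = d}
  one_mem' := by
    refine ⟨fun x => ?_, fun d _ => rfl⟩
    show (x : Ω) * (x : Ω)⁻¹ ∈ D
    rw [mul_inv_cancel]
    exact D.one_mem
  mul_mem' := by
    rintro a b ⟨ha1, ha2⟩ ⟨hb1, hb2⟩
    refine ⟨fun x => ?_, fun d hd => ?_⟩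
    · have h1 := D.mul_mem (ha1 (b x)) (hb1 x)
      have h2 : ((a (b x) : Q) : Ω) * ((b x : Q) : Ω)⁻¹ * (((b x : Q) : Ω) * (x : Ω)⁻¹) =
          ((a (b x) : Q) : Ω) * (x : Ω)⁻¹ := by group
      rw [h2] at h1
      exact h1
    · show a (b d) = d
      rw [hb2 d hd, ha2 d hd]
  inv_mem' := by
    rintro a ⟨ha1, ha2⟩
    refine ⟨fun x => ?_, fun d hd => ?_⟩
    · have h1 := ha1 (a⁻¹ x)
      have h2 : a (a⁻¹ x) = x := MulEquiv.apply_symm_apply _ _
      rw [h2] at h1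
      have h3 := D.inv_mem h1
      rw [mul_inv_rev, inv_inv] at h3
      exact h3
    · have h1 : a⁻¹ (a d) = d := MulEquiv.symm_apply_apply _ _
      rw [ha2 d hd] at h1
      exact h1

theorem stb_isPGroup {Ω : Type*} [Group Ω] {p : ℕ} [Fact p.Prime] {Q D : Subgroup Ω} [Finite Q] (hQ : IsPGroup p Q) :
    IsPGroup p (stb Q D) := by
  obtain ⟨k, hk⟩ := IsPGroup.iff_card.1 hQ
  rintro ⟨a, ha1, ha2⟩
  refine ⟨k, ?_⟩
  apply Subtype.ext
  show a ^ p ^ k = 1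
  apply MulEquiv.ext
  intro x
  show (a ^ p ^ k) x = x
  have hd : a (a x * x⁻¹) = a x * x⁻¹ := ha2 _ (ha1 x)
  have hit : ∀ m : ℕ, (a ^ m) x = (a x * x⁻¹) ^ m * x := by
    intro m
    induction m with
    | zero => simp
    | succ m ih =>
      rw [pow_succ']
      show a ((a ^ m) x) = _
      rw [ih, map_mul, map_pow, hd, pow_succ]
      group
  rw [hit, ← hk, pow_card_eq_one', one_mul]

theorem exists_max {Ω : Type*} [Group Ω] {S : Subgroup Ω} [Finite S] {p : ℕ} [Fact p.Prime] (hS : IsPGroup p S)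
    {F : FusionSystem S} {Q D : Subgroup Ω} (hQ : F.IsEssential p Q) (hD : D ≤ Q)
    (_hDn : ∀ q ∈ Q, ∀ d ∈ D, q * d * q⁻¹ ∈ D) {b : Ω} (hbS : b ∈ S) (hbN : b ∈ normalizer (Q : Set Ω)) (hbQ : b ∉ Q)
    (hb1 : ∀ q ∈ Q, b * q * b⁻¹ * q⁻¹ ∈ D) (hb2 : ∀ d ∈ D, b * d = d * b) :
    ∃ a : Ω → Ω, Mp F Q a ∧ (∀ x ∈ Q, a x ∈ Q) ∧ (∃ d ∈ D, a d ∉ D) ∧
      (∀ n ∈ S, n ∈ normalizer (Q : Set Ω) → n ∉ Q → ∃ d ∈ D, ∀ d' ∈ D, n * a d * n⁻¹ ≠ a d') ∧
      (∀ n ∈ S, n ∈ normalizer (Q : Set Ω) → n ∉ Q → (∀ d ∈ D, n * d = d * n) →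
        ∀ d ∈ D, a d ∉ D → ¬ (n * a d * n⁻¹ * (a d)⁻¹ ∈ D ∧ ∃ d' ∈ D, n * a d * n⁻¹ * (a d)⁻¹ = a d')) := by
  obtain ⟨hc, -, hnorm, E, hE⟩ := hQ
  have hQS : Q ≤ S := hc.1
  have hfin : Finite Q := finite_of_le hQS
  have hQp : IsPGroup p Q := hS.to_le hQS
  set A := F.autGroup Q with hA
  have hWA : autInducedBy S Q ≤ A := autInducedBy_le_autGroup F hQS
  -- the automorphism induced by an element of `N_S(Q) \ Q`
  have hcj : ∀ n ∈ S, n ∈ normalizer (Q : Set Ω) → n ∉ Q → ∃ τ : A,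
      (∀ x : Q, (((τ : MulAut Q) x : Q) : Ω) = n * (x : Ω) * n⁻¹) ∧ τ ∈ (autInducedBy S Q).subgroupOf A ∧
      τ ∉ (Inn Q).subgroupOf A := by
    intro n hnS hn hnQ
    obtain ⟨τ, hτ⟩ := exists_conjAut hn
    have h1 : τ ∈ autInducedBy S Q := (mem_autInducedBy_iff S Q τ).2 ⟨n, hnS, hτ⟩
    exact ⟨⟨τ, hWA h1⟩, hτ, h1, fun h => hnQ (mem_of_inn hc hnS hτ h)⟩
  obtain ⟨β, hβ, hβW, hβI⟩ := hcj b hbS hbN hbQ
  have hβB : β ∈ (stb Q D).subgroupOf A := by
    refine ⟨fun x => ?_, fun d hd => ?_⟩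
    · show (((β : MulAut Q) x : Q) : Ω) * (x : Ω)⁻¹ ∈ D
      rw [hβ x]
      exact hb1 x x.2
    · show (β : MulAut Q) d = d
      apply Subtype.ext
      rw [hβ d, hb2 d hd]
      group
  obtain ⟨H, hHt, hSt, hH⟩ := abs_strong (p := p) hE (W := (autInducedBy S Q).subgroupOf A)
    (B := (stb Q D).subgroupOf A) (St := (respects Q D).subgroupOf A)
    ((isPGroup_autInducedBy hS Q).comap_of_injective _ (Subgroup.subtype_injective _))
    ((stb_isPGroup hQp).comap_of_injective _ (Subgroup.subtype_injective _)) (by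
      rintro s hs x ⟨hx1, hx2⟩
      have hs' : ∀ x : Q, ((x : Ω) ∈ D ↔ (((s : MulAut Q) x : Q) : Ω) ∈ D) := hs
      have hss : ∀ y : Q, (s : MulAut Q) ((s : MulAut Q)⁻¹ y) = y := fun y => MulEquiv.apply_symm_apply _ _
      refine ⟨fun y => ?_, fun d hd => ?_⟩
      · have h3 := hx1 ((s : MulAut Q)⁻¹ y)
        have h5 := (hs' ((x : MulAut Q) ((s : MulAut Q)⁻¹ y) * ((s : MulAut Q)⁻¹ y)⁻¹)).1 h3
        rw [map_mul, map_inv, hss] at h5
        exact h5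
      · show (s : MulAut Q) ((x : MulAut Q) ((s : MulAut Q)⁻¹ d)) = d
        have h3 : (((s : MulAut Q)⁻¹ d : Q) : Ω) ∈ D := by
          rw [hs' ((s : MulAut Q)⁻¹ d), hss]
          exact hd
        have h4 : (x : MulAut Q) ((s : MulAut Q)⁻¹ d) = (s : MulAut Q)⁻¹ d := hx2 _ h3
        rw [h4, hss]) hβW hβB hβI
  -- choose `a`
  have hne : Nonempty {a : A // a ∉ H} := by
    by_contra h
    rw [not_nonempty_iff] at h
    apply hHt
    rw [eq_top_iff]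
    intro a _
    by_contra ha
    exact h.false ⟨a, ha⟩
  obtain ⟨⟨a, haH⟩, hmax⟩ := Finite.exists_max
    (fun a : {a : A // a ∉ H} => Nat.card {x : Q // (x : Ω) ∈ D ∧ (((a.1 : MulAut Q) x : Q) : Ω) ∈ D})
  have hax : ∀ x : Q, ex (fun x => (((a : MulAut Q) x : Q) : Ω)) x = (((a : MulAut Q) x : Q) : Ω) :=
    fun x => ex_coe _ x
  refine ⟨ex fun x => (((a : MulAut Q) x : Q) : Ω), (mp_iff_autGroup hQS (a : MulAut Q)).1 a.2, ?_, ?_, ?_, ?_⟩
  · intro x hx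
    rw [ex_apply _ hx]
    exact ((a : MulAut Q) ⟨x, hx⟩).2
  · by_contra hno
    push Not at hno
    apply haH
    apply hSt
    apply mem_respects_of_mapsTo
    intro x hx
    have h1 := hno x hx
    rwa [hax] at h1
  · intro n hnS hn hnQ
    by_contra hno
    push Not at hno
    obtain ⟨τ, hτ, hτW, hτI⟩ := hcj n hnS hn hnQ
    apply haH
    apply hH τ hτW hτI a
    apply hSt
    apply mem_respects_of_mapsTo
    intro x hx
    obtain ⟨d', hd', h1⟩ := hno x hx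
    rw [hax, ex_apply _ (hD hd')] at h1
    have h2 : (τ : MulAut Q) ((a : MulAut Q) x) = (a : MulAut Q) ⟨d', hD hd'⟩ := by
      apply Subtype.ext
      rw [hτ]
      exact h1
    show (((a : MulAut Q)⁻¹ ((τ : MulAut Q) ((a : MulAut Q) x)) : Q) : Ω) ∈ D
    rw [h2]
    have h3 : (a : MulAut Q)⁻¹ ((a : MulAut Q) ⟨d', hD hd'⟩) = ⟨d', hD hd'⟩ := MulEquiv.symm_apply_apply _ _
    rw [h3]
    exact hd'
  · rintro n hnS hn hnQ hnD d hd hadD ⟨h1, d', hd', h2⟩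
    obtain ⟨τ, hτ, hτW, hτI⟩ := hcj n hnS hn hnQ
    rw [ex_apply _ (hD hd)] at hadD h1 h2
    rw [ex_apply _ (hD hd')] at h2
    -- `c = τ⁻¹`, `a' = a⁻¹ c a`
    have hτi : ∀ x : Q, (τ : MulAut Q)⁻¹ ((τ : MulAut Q) x) = x := fun x => MulEquiv.symm_apply_apply _ _
    have hai : ∀ x : Q, (a : MulAut Q)⁻¹ ((a : MulAut Q) x) = x := fun x => MulEquiv.symm_apply_apply _ _
    have hfixD : ∀ x : Q, (x : Ω) ∈ D → (τ : MulAut Q)⁻¹ x = x := by
      intro x hx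
      have h3 : (τ : MulAut Q) x = x := by
        apply Subtype.ext
        rw [hτ x, hnD x hx]
        group
      calc (τ : MulAut Q)⁻¹ x = (τ : MulAut Q)⁻¹ ((τ : MulAut Q) x) := by rw [h3]
        _ = x := hτi x
    have ha' : a⁻¹ * τ⁻¹ * a ∉ H := by
      intro h
      apply haH
      refine hH τ⁻¹ (inv_mem hτW) (fun h => hτI ?_) a h
      simpa using inv_mem h
    have hval : ∀ x : Q, ((a⁻¹ * τ⁻¹ * a : A) : MulAut Q) x =
        (a : MulAut Q)⁻¹ ((τ : MulAut Q)⁻¹ ((a : MulAut Q) x)) := fun x => rfl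
    have hle := hmax ⟨_, ha'⟩
    -- the injection
    set N0 : Set Q := {x | (x : Ω) ∈ D ∧ (((a : MulAut Q) x : Q) : Ω) ∈ D} with hN0
    set N1 : Set Q := {x | (x : Ω) ∈ D ∧ ((((a⁻¹ * τ⁻¹ * a : A) : MulAut Q) x : Q) : Ω) ∈ D} with hN1
    have hsub : N0 ⊂ N1 := by
      rw [Set.ssubset_iff_of_subset]
      · refine ⟨⟨d, hD hd⟩, ⟨hd, ?_⟩, fun h => hadD h.2⟩
        rw [hval]
        -- `[n, y] = a d' =: c ∈ D`, `τ y = c y`, `τ⁻¹ y = c⁻¹ y`
        have h3 : (τ : MulAut Q) ((a : MulAut Q) ⟨d, hD hd⟩) =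
            (a : MulAut Q) ⟨d', hD hd'⟩ * (a : MulAut Q) ⟨d, hD hd⟩ := by
          apply Subtype.ext
          rw [hτ, Subgroup.coe_mul, ← h2]
          group
        have hcD : (((a : MulAut Q) ⟨d', hD hd'⟩ : Q) : Ω) ∈ D := by rw [← h2]; exact h1
        have h4 : (τ : MulAut Q)⁻¹ ((a : MulAut Q) ⟨d, hD hd⟩) =
            ((a : MulAut Q) ⟨d', hD hd'⟩)⁻¹ * (a : MulAut Q) ⟨d, hD hd⟩ := by
          have h5 := congrArg (fun z => (τ : MulAut Q)⁻¹ z) h3
          simp only [map_mul] at h5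
          rw [hτi, hfixD _ hcD] at h5
          rw [← inv_mul_eq_iff_eq_mul] at h5
          exact h5.symm
        rw [h4, map_mul, map_inv, hai, hai]
        exact mul_mem (inv_mem hd') hd
      · rintro x ⟨hx1, hx2⟩
        refine ⟨hx1, ?_⟩
        rw [hval, hfixD _ hx2, hai]
        exact hx1
    have hlt : Nat.card N0 < Nat.card N1 := Set.ncard_lt_ncard hsub (Set.toFinite _)
    exact absurd hlt (not_lt_of_ge hle)

end Cfsg.Agent.H575.Co
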